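import Mathlib
import Cfsg.Agent.Modules.Fixed

/-! Recognition of the symmetric group of degree four and of its product with a group of order two. -/

set_option autoImplicit false

namespace Cfsg.Agent.SimsLocal

open scoped Pointwise

variable {H : Type*} [Group H] [Finite H]

omit [Finite H] in
theorem closure_pair_card_le {a b : H} (ha : a * a = 1) (hb : b * b = 1) {k : ℕ} (hk : 0 < k)
    (hab : (a * b) ^ k = 1) : Nat.card (Subgroup.closure ({a, b} : Set H)) ≤ 2 * k := by
  classical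
  have : NeZero k := ⟨hk.ne'⟩
  set w := a * b with hw
  let f : Fin k × Bool → H := fun p => w ^ p.1.val * if p.2 then a else 1
  have hwz : ∀ m : ℤ, ∃ i : Fin k, w ^ m = w ^ i.val := by
    intro m
    refine ⟨⟨(m % k).toNat, by have := Int.emod_lt_of_pos m (by omega : (0 : ℤ) < k); omega⟩, ?_⟩
    have h1 : w ^ ((k : ℤ)) = 1 := by rw [zpow_natCast, hab]
    conv_lhs => rw [← Int.emod_add_mul_ediv m k, zpow_add, zpow_mul, h1, one_zpow, mul_one]
    rw [← zpow_natCast, Int.toNat_of_nonneg (Int.emod_nonneg _ (by omega))]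
  have ha' : a⁻¹ = a := inv_eq_of_mul_eq_one_right ha
  have hb' : b⁻¹ = b := inv_eq_of_mul_eq_one_right hb
  have haw : ∀ m : ℤ, a * w ^ m = w ^ (-m) * a := by
    intro m
    have h1 : a * w * a⁻¹ = w⁻¹ := by rw [hw, mul_inv_rev, hb', ha', ← mul_assoc, ha, one_mul]
    calc a * w ^ m = (a * w * a⁻¹) ^ m * a := by rw [conj_zpow]; group
      _ = w ^ (-m) * a := by rw [h1, inv_zpow']
  let D : Subgroup H :=
    { carrier := {g | ∃ m : ℤ, g = w ^ m ∨ g = w ^ m * a}
      one_mem' := ⟨0, Or.inl (by simp)⟩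
      mul_mem' := by
        rintro x y ⟨m, rfl | rfl⟩ ⟨l, rfl | rfl⟩
        · exact ⟨m + l, Or.inl (zpow_add w m l).symm⟩
        · exact ⟨m + l, Or.inr (by rw [zpow_add, mul_assoc])⟩
        · exact ⟨m + -l, Or.inr (by rw [mul_assoc, haw, zpow_add, mul_assoc])⟩
        · exact ⟨m + -l, Or.inl (by rw [mul_assoc, ← mul_assoc a, haw, mul_assoc, ha, mul_one, zpow_add])⟩
      inv_mem' := by
        rintro x ⟨m, rfl | rfl⟩
        · exact ⟨-m, Or.inl (zpow_neg w m).symm⟩
        · exact ⟨m, Or.inr (by rw [mul_inv_rev, ha', ← zpow_neg, haw, neg_neg])⟩ }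
  have hle : Subgroup.closure ({a, b} : Set H) ≤ D := by
    rw [Subgroup.closure_le]
    rintro x (rfl | rfl)
    · exact ⟨0, Or.inr (by simp)⟩
    · refine ⟨-1, Or.inr ?_⟩
      rw [zpow_neg, zpow_one, hw, mul_inv_rev, hb', ha', mul_assoc, ha, mul_one]
  have hsub : (D : Set H) ⊆ Set.range f := by
    rintro x ⟨m, rfl | rfl⟩
    · obtain ⟨i, hi⟩ := hwz m; exact ⟨(i, false), by simp [f, hi]⟩
    · obtain ⟨i, hi⟩ := hwz m; exact ⟨(i, true), by simp [f, hi]⟩
  have hfin : (D : Set H).Finite := (Set.finite_range f).subset hsub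
  calc Nat.card (Subgroup.closure ({a, b} : Set H))
      ≤ Nat.card D := Nat.card_mono hfin hle
    _ ≤ Nat.card (Set.range f) := Nat.card_mono (Set.finite_range f) hsub
    _ ≤ Nat.card (Fin k × Bool) := Finite.card_range_le f
    _ = 2 * k := by rw [Nat.card_prod, Nat.card_fin, Nat.card_eq_fintype_card, Fintype.card_bool, mul_comm]

/-- A group of order 24 with a self-centralising normal four-group and a dihedral subgroup of
order at most six supplementing it is the symmetric group of degree four. -/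
theorem nonempty_equiv_perm_four {M E : Subgroup H} {a b : H} (hEM : E ≤ M) (ha : a ∈ M)
    (hb : b ∈ M) (ha2 : a * a = 1) (hb2 : b * b = 1) (hab : (a * b) ^ 3 = 1)
    (hEn : M ≤ Subgroup.normalizer (E : Set H)) (hE : Nat.card E = 4)
    (hM : Nat.card M = 24) (hgen : M ≤ E ⊔ Subgroup.closure {a, b})
    (hC : M ⊓ Subgroup.centralizer (E : Set H) ≤ E) :
    Nonempty (M ≃* Equiv.Perm (Fin 4)) := by
  classical
  set D := Subgroup.closure ({a, b} : Set H) with hD
  have hDM : D ≤ M := by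
    rw [hD, Subgroup.closure_le]; rintro x (rfl | rfl) <;> assumption
  have hDc : Nat.card D ≤ 6 := closure_pair_card_le ha2 hb2 (by norm_num) hab
  have hMeq : M = E ⊔ D := le_antisymm hgen (sup_le hEM hDM)
  have hprod := Cfsg.Agent.Modules.card_sup_mul_card_inf (hDM.trans hEn)
  rw [sup_comm, ← hMeq, inf_comm, hM, hE] at hprod
  have hpos : 0 < Nat.card ↥(E ⊓ D) := Nat.card_pos
  have hD6 : Nat.card D = 6 ∧ Nat.card ↥(E ⊓ D) = 1 := by
    constructor <;> nlinarith
  have hindex : (D.subgroupOf M).index = 4 := by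
    have h1 := Subgroup.card_mul_index (D.subgroupOf M)
    rw [Nat.card_congr (Subgroup.subgroupOfEquivOfLe hDM).toEquiv, hD6.1, hM] at h1
    omega
  haveI : Finite (↥M ⧸ D.subgroupOf M) := inferInstance
  have hinj : Function.Injective (MulAction.toPermHom ↥M (↥M ⧸ D.subgroupOf M)) := by
    rw [← MonoidHom.ker_eq_bot_iff, ← Subgroup.normalCore_eq_ker, eq_bot_iff]
    intro g hg
    have hgD : (g : H) ∈ D := (Subgroup.normalCore_le _ hg : g ∈ D.subgroupOf M)
    have hgE : (g : H) ∈ Subgroup.centralizer (E : Set H) := by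
      intro e he
      have h1 : (⟨e, hEM he⟩ : M) * g * (⟨e, hEM he⟩ : M)⁻¹ * g⁻¹ ∈ (D.subgroupOf M).normalCore :=
        mul_mem ((Subgroup.normalCore_normal _).conj_mem g hg _) (inv_mem hg)
      have hD1 : e * (g : H) * e⁻¹ * (g : H)⁻¹ ∈ D := by
        have h1' := Subgroup.normalCore_le _ h1
        simpa [Subgroup.mem_subgroupOf] using h1'
      have hE1 : e * (g : H) * e⁻¹ * (g : H)⁻¹ ∈ E := by
        rw [mul_assoc, mul_assoc, ← mul_assoc (g : H)]
        exact mul_mem he ((Subgroup.mem_normalizer_iff.mp (hEn g.2) e⁻¹).mp (inv_mem he))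
      have hbot : E ⊓ D = ⊥ := Subgroup.card_eq_one.mp hD6.2
      have h2 : e * (g : H) * e⁻¹ * (g : H)⁻¹ ∈ E ⊓ D := ⟨hE1, hD1⟩
      rw [hbot, Subgroup.mem_bot] at h2
      exact mul_inv_eq_iff_eq_mul.mp (mul_inv_eq_one.mp h2)
    have hbot : E ⊓ D = ⊥ := Subgroup.card_eq_one.mp hD6.2
    have h2 : (g : H) ∈ E ⊓ D := ⟨hC ⟨g.2, hgE⟩, hgD⟩
    rw [hbot, Subgroup.mem_bot] at h2
    exact Subgroup.mem_bot.mpr (Subtype.ext h2)
  have hc4 : Nat.card (↥M ⧸ D.subgroupOf M) = 4 := hindex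
  obtain ⟨e⟩ : Nonempty ((↥M ⧸ D.subgroupOf M) ≃ Fin 4) :=
    ⟨Finite.equivFinOfCardEq hc4⟩
  let g : M →* Equiv.Perm (Fin 4) :=
    e.permCongrHom.toMonoidHom.comp (MulAction.toPermHom ↥M (↥M ⧸ D.subgroupOf M))
  have hg : Function.Injective g := e.permCongrHom.injective.comp hinj
  refine ⟨MulEquiv.ofBijective g ((Nat.bijective_iff_injective_and_card g).mpr ⟨hg, ?_⟩)⟩
  rw [hM, Nat.card_eq_fintype_card, Fintype.card_perm, Fintype.card_fin]
  rfl

omit [Finite H] in
/-- A product with a central subgroup of order two. -/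
theorem nonempty_equiv_prod {G M : Subgroup H} {u : H} (hMG : M ≤ G) (hu : u ∈ G) (hu1 : u ≠ 1)
    (hu2 : u * u = 1) (huM : u ∉ M) (hc : ∀ g ∈ G, Commute g u)
    (hgen : G ≤ M ⊔ Subgroup.zpowers u) {K : Type*} [Group K] (e : M ≃* K) :
    Nonempty (G ≃* K × Multiplicative (ZMod 2)) := by
  classical
  have ho : orderOf u = 2 := orderOf_eq_prime (by rw [pow_two]; exact hu2) hu1
  have hcard : Nat.card (Subgroup.zpowers (⟨u, hu⟩ : G)) = 2 := by
    rw [Nat.card_zpowers, Subgroup.orderOf_mk, ho]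
  haveI : IsCyclic (Subgroup.zpowers (⟨u, hu⟩ : G)) := inferInstance
  let c : Subgroup.zpowers (⟨u, hu⟩ : G) ≃* Multiplicative (ZMod 2) :=
    (zmodCyclicMulEquiv (G := Subgroup.zpowers (⟨u, hu⟩ : G)) inferInstance).symm.trans
      (AddEquiv.toMultiplicative (ZMod.ringEquivCongr hcard).toAddEquiv)
  have hcomm : ∀ (m : M) (z : Subgroup.zpowers (⟨u, hu⟩ : G)),
      Commute (Subgroup.inclusion hMG m) ((Subgroup.zpowers (⟨u, hu⟩ : G)).subtype z) := by
    intro m z
    obtain ⟨k, hk⟩ := z.2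
    have h1 : Commute (Subgroup.inclusion hMG m) (⟨u, hu⟩ : G) :=
      Subtype.ext (hc m (hMG m.2)).eq
    simpa [← hk] using h1.zpow_right k
  let f : M × Subgroup.zpowers (⟨u, hu⟩ : G) →* G :=
    (Subgroup.inclusion hMG).noncommCoprod (Subgroup.zpowers (⟨u, hu⟩ : G)).subtype hcomm
  have hf : Function.Bijective f := by
    constructor
    · rw [injective_iff_map_eq_one]
      rintro ⟨m, ⟨z, hz⟩⟩ h1
      obtain ⟨k, rfl⟩ := hz
      have h2 : (m : H) * u ^ k = 1 := by simpa [f] using congrArg Subtype.val h1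
      have h3 : u ^ k ∈ M := by
        rw [← inv_eq_of_mul_eq_one_right h2]; exact inv_mem m.2
      have h4 : u ^ k = 1 := by
        rcases Int.even_or_odd k with ⟨j, rfl⟩ | ⟨j, rfl⟩
        · rw [zpow_add, ← (Commute.refl u).mul_zpow, hu2, one_zpow]
        · exfalso; apply huM
          rwa [zpow_add, zpow_one, two_mul, zpow_add, ← (Commute.refl u).mul_zpow, hu2, one_zpow,
            one_mul] at h3
      rw [h4, mul_one] at h2
      exact Prod.ext (Subtype.ext h2) (Subtype.ext (Subtype.ext (by simpa using h4)))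
    · intro g
      have hn : Subgroup.zpowers u ≤ Subgroup.normalizer (M : Set H) := by
        rw [Subgroup.zpowers_le]
        refine Subgroup.mem_normalizer_iff.mpr fun m => ⟨fun hm => ?_, fun hm => ?_⟩
        · rw [← (hc m (hMG hm)).eq, mul_inv_cancel_right]; exact hm
        · have h1 := (hc _ (hMG hm)).eq
          have h2 : m = u * m * u⁻¹ := by
            have := congrArg (fun x => u⁻¹ * x) h1
            simpa [mul_assoc] using this
          rw [h2]; exact hm
      have hg := hgen g.2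
      rw [← SetLike.mem_coe, Subgroup.coe_mul_of_right_le_normalizer_left M _ hn] at hg
      obtain ⟨m, hm, v, ⟨k, rfl⟩, hmv⟩ := hg
      exact ⟨(⟨m, hm⟩, ⟨(⟨u, hu⟩ : G) ^ k, k, rfl⟩), Subtype.ext (by simpa [f] using hmv)⟩
  exact ⟨(MulEquiv.ofBijective f hf).symm.trans (e.prodCongr c)⟩

end Cfsg.Agent.SimsLocal
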